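import Cfsg.Agent.MX.A

/-! A normal subgroup meeting a Sylow subgroup of maximal class in a term of the lower central series. -/

set_option autoImplicit false

namespace Cfsg.Agent.MX

open Subgroup H9 L0 H11
open scoped commutatorElement

universe u
variable {G : Type u} [Group G] [Finite G] {p n i : ℕ} [hp : Fact p.Prime] (P : Sylow p G) (N : Subgroup G) [N.Normal]

theorem sylN : IsSylIn p ((P : Subgroup G) ⊓ N) N :=
  (isSylIn_top P).inf_of_normalized le_top fun _ _ => le_normalizer_of_normal (mem_top _)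

theorem PH : (P : Subgroup G) ≤ normalizer (((P : Subgroup G) ⊓ N : Subgroup G) : Set G) := fun _ hs =>
  H11.mem_normalizer_of_forall fun x hx => ⟨mul_mem (mul_mem hs hx.1) ((P : Subgroup G).inv_mem hs), Normal.conj_mem inferInstance x hx.2 _⟩

theorem fr (g : G) : ∃ m ∈ N, m * g ∈ normalizer (((P : Subgroup G) ⊓ N : Subgroup G) : Set G) :=
  (sylN P N).frattini (le_normalizer_of_normal (mem_top g))

theorem fus {x g : G} (hx : x ∈ (P : Subgroup G)) (hx' : g * x * g⁻¹ ∈ (P : Subgroup G)) :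
    ∃ k ∈ normalizer (((P : Subgroup G) ⊓ N : Subgroup G) : Set G), k * x * k⁻¹ ∈ (P : Subgroup G) ∧
      k * x * k⁻¹ * (g * x * g⁻¹)⁻¹ ∈ N := by
  obtain ⟨m, hm, hh⟩ := fr P N g
  have c : ∀ a ∈ N, a * (g * x * g⁻¹) * a⁻¹ * (g * x * g⁻¹)⁻¹ ∈ N := fun a ha => by
    rw [mul_assoc a, mul_assoc a]; exact mul_mem ha (Normal.conj_mem inferInstance _ (inv_mem ha) _)
  obtain ⟨j, hj⟩ := IsPGroup.iff_orderOf.1 P.isPGroup' ⟨x, hx⟩
  obtain ⟨k, hk, e⟩ := (isSylIn_of_sylow_le P (K := normalizer (((P : Subgroup G) ⊓ N : Subgroup G) : Set G) ⊓ (N ⊔ P))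
    (le_inf (PH P N) le_sup_right)).exists_conj_mem (x := m * g * x * (m * g)⁻¹) (k := j)
    (by rw [← MulAut.conj_apply, MulEquiv.orderOf_eq, ← hj, ← orderOf_coe]) ⟨mul_mem (mul_mem hh (PH P N hx)) (Subgroup.inv_mem _ hh), by
      rw [show m * g * x * (m * g)⁻¹ = m * (g * x * g⁻¹) * m⁻¹ by group]
      exact mul_mem (mul_mem (mem_sup_left hm) (mem_sup_right hx')) (Subgroup.inv_mem _ (mem_sup_left hm))⟩
  obtain ⟨s, hs, a, ha, rfl⟩ := mem_sup_of_normal_right.1 (sup_comm N _ ▸ hk.2)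
  refine ⟨a * (m * g), mul_mem ((mul_mem_cancel_left (PH P N hs)).1 hk.1) hh, ?_, ?_⟩
  · have := mul_mem (mul_mem (inv_mem hs) e) hs
    convert this using 1
    group
  · convert c _ (mul_mem ha hm) using 2
    group

variable (h : MaxClass p n (P : Subgroup G)) (h1 : 1 ≤ i) (hi : i + 3 ≤ n)
  (hQ : N.subgroupOf P = gam (P : Subgroup G) i)
include h h1 hi hQ

theorem four (hmax : ∀ M : Subgroup G, M.Normal → N ≤ M → M = N ∨ M = ⊤) : i + 4 ≤ n := by
  by_contra c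
  obtain rfl : i = n - 3 := by omega
  obtain ⟨x, hx⟩ := exists_good n h
  have q : ∀ {a : (P : Subgroup G)}, a ∈ gam (P : Subgroup G) (n - 3) ↔ (a : G) ∈ N := by rw [← hQ]; rfl
  have t : ∀ a : (P : Subgroup G), a ∈ tsc (P : Subgroup G) (n - 3) ↔
      (a : G) ∈ centralizer (((P : Subgroup G) ⊓ N : Subgroup G) : Set G) := fun a => ⟨fun ha y hy => by
    have := ha ⟨y, hy.1⟩ (q.2 hy.2)
    rw [mc_bot h (by omega)] at this
    exact congrArg Subtype.val (commutatorElement_eq_one_iff_mul_comm.1 this), fun ha y hy => by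
    rw [commutatorElement_eq_one_iff_mul_comm.2 (Subtype.ext (ha y ⟨y.2, q.1 hy⟩))]; exact one_mem _⟩
  rcases hmax (N ⊔ centralizer (((P : Subgroup G) ⊓ N : Subgroup G) : Set G)) ⟨fun a ha g => by
    obtain ⟨b, hb, c, hc, rfl⟩ := mem_sup_of_normal_left.1 ha
    obtain ⟨m, hm, hh⟩ := fr P N g
    rw [show g * (b * c) * g⁻¹ = g * b * g⁻¹ * (m⁻¹ * (m * g * c * (m * g)⁻¹) * m) by group]
    refine mul_mem (mem_sup_left (Normal.conj_mem inferInstance _ hb _)) (mul_mem (mul_mem (mem_sup_left (inv_mem hm))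
      (mem_sup_right fun y hy => ?_)) (mem_sup_left hm))
    rw [show y = m * g * ((m * g)⁻¹ * y * (m * g)) * (m * g)⁻¹ by group, conj_mul, conj_mul,
      hc _ (H11.conj_mem_of_mem_normalizer' hh hy)]⟩ le_sup_left with e | e
  · exact nle h (by omega) hx fun a ha => gam_anti h1 (q.2 (e ▸ mem_sup_right ((t a).1 ha)))
  obtain ⟨m, hm, c, hc, f⟩ := mem_sup_of_normal_left.1 (e ▸ mem_top (x : G))
  have mH : m ∈ normalizer (((P : Subgroup G) ⊓ N : Subgroup G) : Set G) :=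
    (mul_mem_cancel_right (centralizer_le_normalizer _ hc)).1 (f ▸ PH P N x.2)
  have k : ∀ k : ℕ, ∀ y ∈ (P : Subgroup G) ⊓ N, (x : G) ^ k * y * ((x : G) ^ k)⁻¹ = m ^ k * y * (m ^ k)⁻¹ := fun k y hy => by
    induction k with
    | zero => simp
    | succ k ih =>
      calc _ = x * ((x : G) ^ k * y * ((x : G) ^ k)⁻¹) * (x : G)⁻¹ := by group
        _ = m * (c * (m ^ k * y * (m ^ k)⁻¹) * c⁻¹) * m⁻¹ := by rw [ih, ← f]; group
        _ = _ := by rw [← hc _ (H11.conj_mem_of_mem_normalizer (pow_mem mH k) hy)]; group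
  have S := (sylN P N).of_le (K := N ⊓ normalizer (((P : Subgroup G) ⊓ N : Subgroup G) : Set G))
    (le_inf inf_le_right le_normalizer) inf_le_left
  have := (normal_subgroupOf_iff_le_normalizer S.le).2 inf_le_right
  have me : m ^ ((P : Subgroup G) ⊓ N).relIndex (N ⊓ normalizer (((P : Subgroup G) ⊓ N : Subgroup G) : Set G)) ∈
      (P : Subgroup G) ⊓ N := (((P : Subgroup G) ⊓ N).subgroupOf
        (N ⊓ normalizer (((P : Subgroup G) ⊓ N : Subgroup G) : Set G))).pow_index_mem ⟨m, hm, mH⟩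
  obtain ⟨j, hj⟩ := IsPGroup.iff_orderOf.1 P.isPGroup' x
  obtain ⟨r, hr⟩ := exists_pow_eq_self_of_coprime (x := x) (hj ▸ ((Nat.Prime.coprime_iff_not_dvd hp.out).2
    S.not_dvd_relIndex).symm.pow_right j)
  refine hx (n - 3) (by omega) (hr ▸ pow_mem ((t _).2 fun y hy => ?_) r)
  have := (t ⟨_, me.1⟩).1 (g1_le _ (gam_anti h1 (q.2 me.2))) y hy
  rw [coe_pow, eq_comm, ← mul_inv_eq_iff_eq_mul, k _ y hy, mul_inv_eq_iff_eq_mul, this]

theorem ca (h4 : i + 4 ≤ n) (bl : ∀ l, 1 ≤ l → l + 4 ≤ n → tsc (P : Subgroup G) l = tsc (P : Subgroup G) 1)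
    {x : (P : Subgroup G)} (hx : Good n x) : ¬ p ^ 3 ∣ Nat.card (centralizer ({(x : G)} : Set G)) := fun d => by
  have q : ∀ {a : (P : Subgroup G)}, a ∈ gam (P : Subgroup G) i ↔ (a : G) ∈ N := by rw [← hQ]; rfl
  obtain ⟨R, hR, xR⟩ := exists_isSylIn_le (p := p) (Q := zpowers (x : G)) (H := centralizer {(x : G)})
    (P.isPGroup'.to_le (zpowers_le.2 x.2)) (zpowers_le.2 (mem_centralizer_singleton_iff.2 rfl))
  obtain ⟨g, -, le⟩ := (isSylIn_top P).exists_cj_le hR.pg le_top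
  have hx' := cj_le_iff.1 le _ (xR (mem_zpowers _))
  obtain ⟨k, hk, hy, e⟩ := fus P N x.2 hx'
  have a : ∀ l, i ≤ l → l + 3 ≤ n → (⟨_, hx'⟩ : (P : Subgroup G)) ∉ tsc (P : Subgroup G) l := fun l l1 l2 c => by
    have := ng h (h1.trans l1) l2 (s := ⟨_, hy⟩) ((mul_mem_cancel_right (inv_mem c)).1
      (g1_le _ (gam_anti h1 (q.2 e))))
    refine this.not_ge (le_of_le_of_eq ?_ (cz1 h))
    rw [← H11.card_map_subtype, ← H11.card_map_subtype (gam _ (n - 2)), ← card_cj k ((gam _ (n - 2)).map _)]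
    refine card_le_of_le ?_
    rintro _ ⟨w, hw, rfl⟩
    have m := H11.conj_mem_of_mem_normalizer' hk (show (w : G) ∈ (P : Subgroup G) ⊓ N from ⟨w.2, q.1 (gam_anti l1 hw.1)⟩)
    refine mem_cj.2 ⟨⟨_, m.1⟩, hx.central h (gam_anti h1 (q.2 m.2)) (Subtype.ext ?_), rfl⟩
    have := congrArg Subtype.val (mem_centralizer_singleton_iff.1 hw.2)
    calc k⁻¹ * w * k * x = k⁻¹ * (w * (k * x * k⁻¹)) * k := by group
      _ = x * (k⁻¹ * w * k) := by rw [show (w : G) * (k * x * k⁻¹) = k * x * k⁻¹ * w from this]; group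
  have b : Good n (⟨_, hx'⟩ : (P : Subgroup G)) := fun j hj c => by
    have a1 := a (n - 4) (by omega) (by omega)
    rw [bl _ (by omega) (by omega)] at a1
    by_cases j0 : j = 0
    · exact a1 (tsc_zero_le (j0 ▸ c))
    by_cases j1 : j = n - 3
    · exact a j (by omega) (by omega) c
    · exact a1 (bl j (by omega) (by omega) ▸ c)
  have c := gc h b
  rw [← H11.card_map_subtype] at c
  have f : cj g R ≤ (centralizer {(⟨_, hx'⟩ : (P : Subgroup G))}).map (P : Subgroup G).subtype := fun y hy =>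
    ⟨⟨y, le hy⟩, mem_centralizer_singleton_iff.2 (Subtype.ext (mem_centralizer_singleton_iff.1
      (cj_cent1 g x ▸ cj_mono g hR.le hy :))), rfl⟩
  have := card_le_of_le f
  rw [c, card_cj, hR.card_eq_pow, Nat.pow_le_pow_iff_right hp.out.one_lt] at this
  have := (hp.out.pow_dvd_iff_le_factorization Nat.card_pos.ne').1 d
  omega

end Cfsg.Agent.MX
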