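import Cfsg.Agent.FX.E1
import Cfsg.Agent.H11.Syl

set_option autoImplicit false

namespace Cfsg.Agent.MX

open Subgroup

universe u

theorem cb0 {p : ℕ} [hp : Fact p.Prime] (n : ℕ) : ∀ {G : Type u} [Group G] [Finite G] (P : Sylow p G)
    (N : Subgroup G) [N.Normal], Nat.card G = n →
    (∀ a ∈ (P : Subgroup G), ∀ b ∈ (P : Subgroup G), a⁻¹ * (b * a * b⁻¹) ∈ N) →
    ∀ x ∈ (P : Subgroup G), x ∉ N → Nat.card ↥((P : Subgroup G) ⊓ centralizer {x}) ≤ p ^ 2 →
    ¬ p ^ 3 ∣ Nat.card (centralizer ({x} : Set G)) := by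
  induction n using Nat.strong_induction_on with
  | _ n ih =>
  intro G _ _ P N hNn hn hcm x hx hN hc hd
  have p1 := hp.out.one_lt
  set A := (P : Subgroup G) ⊓ centralizer {x} with hA
  have pA : IsPGroup p A := P.isPGroup'.to_le inf_le_left
  have xA : x ∈ A := mem_inf.2 ⟨hx, H11.mem_cent1.2 rfl⟩
  obtain ⟨B0, hB0, hAB⟩ := H11.exists_isSylIn_le pA inf_le_right
  have cB : p ^ 3 ≤ Nat.card B0 := by
    rw [hB0.card_eq_pow]
    exact Nat.pow_le_pow_right p1.le ((hp.out.pow_dvd_iff_le_factorization Nat.card_pos.ne').1 hd)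
  have p23 : p ^ 2 < p ^ 3 := Nat.pow_lt_pow_right p1 (by norm_num)
  have lt1 : A < B0 := lt_of_le_of_ne hAB fun e => by rw [e] at hc; omega
  have lt2 : A < P := lt_of_le_of_ne inf_le_left fun e => by
    have : B0 = P := P.3 hB0.pg (e ▸ hAB)
    exact lt1.ne (e.trans this.symm)
  obtain ⟨w, hw, hwA, hwN⟩ := H11.exists_mem_normalizer_of_lt P.isPGroup' lt2
  have z1 : x⁻¹ * (w * x * w⁻¹) ∈ A ⊓ N :=
    mem_inf.2 ⟨mul_mem (inv_mem xA) (H11.conj_mem_of_mem_normalizer hwN xA), hcm x hx w hw⟩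
  have z2 : x⁻¹ * (w * x * w⁻¹) ≠ 1 := fun e => hwA (mem_inf.2 ⟨hw, H11.mem_cent1.2 (by
    rw [inv_mul_eq_one, eq_mul_inv_iff_mul_eq] at e; exact e.symm)⟩)
  obtain ⟨z, hz, oz, hzc⟩ := H11.exists_orderOf_eq_centralizer_of_normalized
    (N := (P : Subgroup G) ⊓ N) P.isPGroup' (P.isPGroup'.to_le inf_le_left)
    (fun e => z2 (mem_bot.1 (e ▸ mem_inf.2 ⟨(mem_inf.1 (mem_inf.1 z1).1).1, (mem_inf.1 z1).2⟩)))
    (fun g hg => H11.mem_normalizer_of_forall fun y hy => mem_inf.2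
      ⟨mul_mem (mul_mem hg (mem_inf.1 hy).1) (inv_mem hg), hNn.conj_mem _ (mem_inf.1 hy).2 g⟩)
  have lt3 : A ⊓ N < A := lt_of_le_of_ne inf_le_left fun e => hN (mem_inf.1 (e.ge xA)).2
  have cz : Nat.card (zpowers z) = p := by rw [Nat.card_zpowers, oz]
  have l3 := H11.card_lt_of_lt lt3
  have eZ : zpowers z = A ⊓ N := by
    refine eq_of_le_of_card_ge (zpowers_le.2 (mem_inf.2 ⟨mem_inf.2 ⟨(mem_inf.1 hz).1,
      H11.mem_cent1.2 (hzc x hx).symm⟩, (mem_inf.1 hz).2⟩)) ?_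
    obtain ⟨k, hk⟩ := IsPGroup.iff_card.1 (pA.to_le (inf_le_left : A ⊓ N ≤ A))
    rw [cz, hk]
    have : k < 2 := (Nat.pow_lt_pow_iff_right p1).1 (by omega)
    simpa using Nat.pow_le_pow_right p1.le (show k ≤ 1 by omega)
  set B := B0 ⊓ normalizer (A : Set G) with hB
  have pB : IsPGroup p B := hB0.pg.to_le inf_le_left
  have lt4 : A < B := H11.lt_inf_normalizer_of_lt hB0.pg lt1
  have dB : p ^ 3 ∣ Nat.card B := by
    obtain ⟨a, ha⟩ := IsPGroup.iff_card.1 pA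
    obtain ⟨b, hb⟩ := IsPGroup.iff_card.1 pB
    have l4 := H11.card_lt_of_lt lt4
    rw [← eZ, cz, ha] at l3
    rw [ha, hb, Nat.pow_lt_pow_iff_right p1] at l4
    have : 1 < a := (Nat.pow_lt_pow_iff_right p1).1 (by simpa using l3)
    rw [hb]; exact Nat.pow_dvd_pow p (by omega)
  have Bz : B ≤ centralizer {z} := by
    obtain ⟨y, hy, oy, hyc⟩ := H11.exists_orderOf_eq_centralizer_of_normalized (N := zpowers z) pB
      (eZ ▸ pA.to_le inf_le_left) (fun e => by rw [e, card_bot] at cz; omega)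
      (fun g hg => by
        rw [eZ]
        exact H11.mem_normalizer_of_forall fun y hy => mem_inf.2
          ⟨H11.conj_mem_of_mem_normalizer (mem_inf.1 hg).2 (mem_inf.1 hy).1,
            hNn.conj_mem _ (mem_inf.1 hy).2 g⟩)
    have e : zpowers y = zpowers z := eq_of_le_of_card_ge (zpowers_le.2 hy)
      (by rw [cz, Nat.card_zpowers, oy])
    obtain ⟨k, hk⟩ := mem_zpowers_iff.1 (e ▸ mem_zpowers z : z ∈ zpowers y)
    intro g hg
    rw [H11.mem_cent1, ← hk]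
    exact (Commute.zpow_right (hyc g hg) k).eq
  let G1 := centralizer ({z} : Set G)
  have hPG : (P : Subgroup G) ≤ G1 := fun g hg => H11.mem_cent1.2 (hzc g hg)
  let Z : Subgroup G1 := (zpowers z).subgroupOf G1
  have Zc : ∀ y ∈ Z, ∀ g : G1, g * y = y * g := fun y hy g => by
    obtain ⟨k, hk⟩ := mem_zpowers_iff.1 (mem_subgroupOf.1 hy)
    apply Subtype.ext
    show (g : G) * y = y * g
    rw [← hk]
    exact (Commute.zpow_right (H11.mem_cent1.1 g.2) k).eq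
  haveI : Z.Normal := ⟨fun y hy g => by rw [Zc y hy g, mul_inv_cancel_right]; exact hy⟩
  have cZ : Nat.card Z = p := by
    rw [H11.card_subgroupOf (zpowers_le.2 (hPG (mem_inf.1 hz).1)), cz]
  let f := QuotientGroup.mk' Z
  have fs : Function.Surjective f := QuotientGroup.mk'_surjective Z
  let x1 : G1 := ⟨x, hPG hx⟩
  haveI : ((N.subgroupOf G1).map f).Normal := Subgroup.Normal.map inferInstance f fs
  have hq := card_eq_card_quotient_mul_card_subgroup Z
  refine ih (Nat.card (G1 ⧸ Z)) ?_ ((P.subtype hPG).mapSurjective fs) ((N.subgroupOf G1).map f) rfl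
    ?_ (f x1) ⟨x1, hx, rfl⟩ ?_ ?_ ?_
  · have h1 : Nat.card G1 ≤ n := hn ▸ card_le_card_group G1
    have h2 : 0 < Nat.card (G1 ⧸ Z) := Nat.card_pos
    rw [cZ] at hq
    nlinarith
  · rintro _ ⟨a, ha, rfl⟩ _ ⟨b, hb, rfl⟩
    exact ⟨a⁻¹ * (b * a * b⁻¹), hcm a ha b hb, by simp only [map_mul, map_inv]⟩
  · rintro ⟨y, hy, e⟩
    have h1 : y⁻¹ * x1 ∈ Z := QuotientGroup.eq.1 e
    have h2 : ((y⁻¹ * x1 : G1) : G) ∈ N := (mem_inf.1 (eZ ▸ mem_subgroupOf.1 h1)).2
    exact hN ((mul_mem_cancel_left (inv_mem (mem_subgroupOf.1 hy))).1 h2)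
  · let Q : Subgroup (G1 ⧸ Z) := ((P.subtype hPG).mapSurjective fs : Sylow p _)
    let φ : (P : Subgroup G) →* Q := (f.comp (inclusion hPG)).codRestrict Q fun g => ⟨_, g.2, rfl⟩
    have φs : Function.Surjective φ := by
      rintro ⟨_, a, ha, rfl⟩
      exact ⟨⟨a, ha⟩, rfl⟩
    have h1 := FX.E1.cent_surj φ φs ⟨x, hx⟩
    have h2 : centralizer ({(⟨x, hx⟩ : (P : Subgroup G))} : Set (P : Subgroup G)) = A.subgroupOf P := by
      ext g
      rw [H11.mem_cent1, mem_subgroupOf, mem_inf, H11.mem_cent1, Subtype.ext_iff]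
      exact ⟨fun h => ⟨g.2, h⟩, fun h => h.2⟩
    have h3 : centralizer ({φ ⟨x, hx⟩} : Set Q) = (Q ⊓ centralizer {f x1}).subgroupOf Q := by
      ext g
      rw [H11.mem_cent1, mem_subgroupOf, mem_inf, H11.mem_cent1, Subtype.ext_iff]
      exact ⟨fun h => ⟨g.2, h⟩, fun h => h.2⟩
    rw [h2, h3, H11.card_subgroupOf inf_le_left, H11.card_subgroupOf inf_le_left] at h1
    exact h1.trans hc
  · let C := (centralizer ({f x1} : Set (G1 ⧸ Z))).comap f
    have mC : ∀ g : G1, g ∈ C ↔ x1⁻¹ * (g * x1 * g⁻¹) ∈ Z := fun g => by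
      rw [mem_comap, H11.mem_cent1, ← QuotientGroup.eq, ← mul_inv_eq_iff_eq_mul, eq_comm]
      rfl
    let φ : C →* G1 := MonoidHom.mk' (fun g => x1⁻¹ * (g * x1 * (g : G1)⁻¹)) (by
      intro g h
      have := Zc _ ((mC h).1 h.2) (g : G1)⁻¹
      calc x1⁻¹ * ((g : G1) * h * x1 * ((g : G1) * h)⁻¹)
          = x1⁻¹ * g * x1 * ((x1⁻¹ * (h * x1 * (h : G1)⁻¹)) * (g : G1)⁻¹) := by group
        _ = _ := by rw [← this]; group)
    have r1 : Nat.card φ.range = p := by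
      have : Nat.card φ.range ∣ p := cZ ▸ card_dvd_of_le (by
        rintro _ ⟨g, rfl⟩; exact (mC g).1 g.2)
      refine ((Nat.dvd_prime hp.out).1 this).resolve_left fun e => z2 ?_
      have h1 : φ ⟨⟨w, hPG hw⟩, (mC _).2 (mem_subgroupOf.2 (eZ ▸ z1))⟩ ∈ φ.range := ⟨_, rfl⟩
      rw [card_eq_one.1 e, mem_bot] at h1
      exact congrArg Subtype.val h1
    have r2 : p ^ 3 ∣ Nat.card φ.ker := by
      have bx : ∀ g : B, (g : G) * x = x * g := fun g =>
        H11.mem_cent1.1 (hB0.le (mem_inf.1 g.2).1)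
      have b1 : ∀ g : B, x1⁻¹ * (inclusion Bz g * x1 * (inclusion Bz g)⁻¹) = 1 := fun g =>
        Subtype.ext (by
          show x⁻¹ * ((g : G) * x * (g : G)⁻¹) = 1
          rw [bx, mul_inv_cancel_right, inv_mul_cancel])
      let ψ : B →* φ.ker := ((inclusion Bz).codRestrict C fun g =>
        (mC _).2 (by rw [b1]; exact one_mem _)).codRestrict φ.ker fun g => b1 g
      refine dB.trans (card_dvd_of_injective ψ fun a b e => ?_)
      exact Subtype.ext (congrArg (fun t : φ.ker => (((t : C) : G1) : G)) e)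
    have r3 := card_mul_index φ.ker
    rw [index_ker, r1] at r3
    have r4 : Nat.card C = Nat.card (centralizer ({f x1} : Set (G1 ⧸ Z))) * p := by
      have e1 := card_mul_index C
      have e2 := card_mul_index (centralizer ({f x1} : Set (G1 ⧸ Z)))
      rw [index_comap_of_surjective _ fs] at e1
      rw [cZ, ← e2, ← e1, mul_right_comm] at hq
      exact Nat.eq_of_mul_eq_mul_right (Nat.pos_of_ne_zero index_ne_zero_of_finite) hq
    rw [r4] at r3
    rwa [← Nat.eq_of_mul_eq_mul_right hp.out.pos r3]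

theorem cb {G : Type u} [Group G] [Finite G] {p : ℕ} [Fact p.Prime] (P : Sylow p G)
    (N : Subgroup G) [N.Normal] (hi : N.relIndex (P : Subgroup G) = p) {x : G}
    (hx : x ∈ (P : Subgroup G)) (hN : x ∉ N)
    (hc : Nat.card ↥((P : Subgroup G) ⊓ Subgroup.centralizer {x}) ≤ p ^ 2) :
    ¬ p ^ 3 ∣ Nat.card (Subgroup.centralizer ({x} : Set G)) := by
  refine cb0 _ P N rfl (fun a ha b hb => ?_) x hx hN hc
  haveI : IsCyclic ((P : Subgroup G) ⧸ N.subgroupOf P) := isCyclic_of_prime_card (p := p) hi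
  letI := IsCyclic.commGroup (α := (P : Subgroup G) ⧸ N.subgroupOf P)
  have : ((⟨a, ha⟩ : (P : Subgroup G)) : (P : Subgroup G) ⧸ N.subgroupOf P) =
      ((⟨b, hb⟩ * ⟨a, ha⟩ * ⟨b, hb⟩⁻¹ : (P : Subgroup G)) : (P : Subgroup G) ⧸ N.subgroupOf P) := by
    rw [QuotientGroup.mk_mul, QuotientGroup.mk_mul, QuotientGroup.mk_inv, mul_inv_cancel_comm]
  exact mem_subgroupOf.1 (QuotientGroup.eq.1 this)

end Cfsg.Agent.MX
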