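import Cfsg.Agent.S0081
import Cfsg.Agent.H10.Cores
import Cfsg.Agent.H1.Frattini
import Cfsg.Prelude.Def_CaseTheorems

/-! A maximal normal subgroup meeting a Sylow subgroup in at most `p` elements of its derived subgroup. -/

set_option autoImplicit false

namespace Cfsg.Agent.MX

open Cfsg Subgroup

theorem cz {G : Type*} [Group G] [Finite G] {p : ℕ} [Fact p.Prime] (P : Sylow p G)
    (hcore : Cfsg.pPrimeCore p G = ⊥) (hres : ∀ N : Subgroup G, N.Normal → (N.index).Coprime p → N = ⊤)
    (N : Subgroup G) [N.Normal] (hN : N ≠ ⊤) (hmax : ∀ M : Subgroup G, M.Normal → N ≤ M → M = N ∨ M = ⊤)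
    (hQ : Nat.card ↥(N ⊓ (P : Subgroup G)) ≤ p)
    (hZ : N ⊓ (P : Subgroup G) ≤ ⁅(P : Subgroup G), (P : Subgroup G)⁆) (h3 : p ^ 3 ≤ Nat.card P) :
    Cfsg.IsQuasisimple G ∧ Nat.card (Subgroup.center G) ≤ p := by
  have hp : p.Prime := Fact.out
  obtain ⟨R, K, hK, hc⟩ := S0081.result P N (hZ.trans (H1.commutator_le_map_frattini P.isPGroup'.isNilpotent))
  have hKc : (Nat.card K).Coprime p := by
    rw [← hc.index_eq_card]
    exact ((Nat.Prime.coprime_iff_not_dvd hp).2 R.not_dvd_index).symm
  have hK0 : K = ⊥ := by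
    have h1 : (K.map N.subtype).IsSubnormal := (hK.isSubnormal).trans' (inferInstance : N.Normal).isSubnormal
    have h2 := H10.le_pPrimeCore_of_subnormal (p := p) h1 (by rwa [card_subtype])
    rw [hcore, le_bot_iff, map_eq_bot_iff_of_injective _ N.subtype_injective] at h2
    exact h2
  have hNp : IsPGroup p N := by
    have h1 : (R : Subgroup N) = ⊤ := by
      have := hc.sup_eq_top
      rwa [hK0, bot_sup_eq] at this
    have h2 := R.isPGroup'
    rw [h1] at h2
    exact h2.of_equiv topEquiv
  have hNP : N ≤ (P : Subgroup G) := by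
    have := P.is_maximal' (hNp.to_sup_of_normal_left P.isPGroup') le_sup_right
    exact le_sup_left.trans this.le
  rw [inf_of_le_left hNP] at hQ hZ
  obtain ⟨k, hk⟩ := IsPGroup.iff_card.1 hNp
  have hk1 : k ≤ 1 := by
    rw [hk] at hQ
    exact (Nat.pow_le_pow_iff_right hp.one_lt).1 (by rwa [pow_one])
  have hcen : N ≤ center G := by
    have hA : (Nat.card (MulAut N)).Coprime p := by
      rcases Nat.le_one_iff_eq_zero_or_eq_one.1 hk1 with e | e
      · rw [e, pow_zero] at hk
        haveI : Subsingleton N := (Nat.card_eq_one_iff_unique.1 hk).1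
        rw [IsCyclic.card_mulAut, hk, Nat.totient_one]
        exact Nat.coprime_one_left p
      · rw [e, pow_one] at hk
        haveI : IsCyclic N := isCyclic_of_prime_card hk
        rw [IsCyclic.card_mulAut, hk, Nat.totient_prime hp]
        exact (Nat.coprime_self_sub_left hp.one_le).2 (Nat.coprime_one_left p)
    have h1 : (MulAut.conjNormal : G →* MulAut N).ker = ⊤ := by
      refine hres _ inferInstance ?_
      rw [index_ker]
      exact hA.coprime_dvd_left (card_subgroup_dvd_card _)
    intro n hn
    rw [mem_center_iff]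
    intro g
    have h2 : g ∈ (MulAut.conjNormal : G →* MulAut N).ker := h1 ▸ mem_top g
    have h3 := congrArg (fun f : MulAut N => (f ⟨n, hn⟩ : G)) (MonoidHom.mem_ker.1 h2)
    exact mul_inv_eq_iff_eq_mul.1 h3
  have hD : N ≤ commutator G := hZ.trans (commutator_mono le_top le_top)
  have hperf : commutator G = ⊤ := by
    refine (hmax _ inferInstance hD).resolve_left fun e => ?_
    obtain ⟨j, hj⟩ := IsPGroup.iff_card.1 P.isPGroup'
    have hj3 : 3 ≤ j := by
      rw [hj] at h3
      exact (Nat.pow_le_pow_iff_right hp.one_lt).1 h3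
    have hd : p ^ 2 ∣ Nat.card G :=
      ((pow_dvd_pow p (by omega)).trans (dvd_of_eq hj.symm)).trans (card_subgroup_dvd_card (P : Subgroup G))
    obtain ⟨M, hM, hNM⟩ := Sylow.exists_subgroup_card_pow_prime_le p hd N hk (by omega)
    have hMn : M.Normal := Normal.of_commutator_le G (e.le.trans hNM)
    rcases hmax M hMn hNM with e1 | e1
    · rw [e1, hk] at hM
      have := Nat.pow_right_injective hp.two_le hM
      omega
    · rw [e1, card_top] at hM
      have h4 : Nat.card P ≤ Nat.card G := card_le_card_group (P : Subgroup G)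
      rw [hM] at h4
      have := (Nat.pow_le_pow_iff_right hp.one_lt).1 (h3.trans h4)
      omega
  have hZN : center G = N := by
    refine (hmax _ inferInstance hcen).resolve_right fun e => hN ?_
    have h1 : commutator G = ⊥ := by
      rw [_root_.commutator_def, commutator_eq_bot_iff_le_centralizer, coe_top, centralizer_univ, e]
    rw [eq_top_iff, ← hperf, h1]
    exact bot_le
  refine ⟨⟨⟨hperf⟩, ?_⟩, hZN ▸ hQ⟩
  haveI : Nontrivial (G ⧸ center G) := QuotientGroup.nontrivial_iff.2 (hZN ▸ hN)
  refine ⟨fun M hM => ?_⟩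
  have hs := QuotientGroup.mk'_surjective (center G)
  have h1 : N ≤ M.comap (QuotientGroup.mk' (center G)) := by
    rw [← hZN]
    exact (QuotientGroup.ker_mk' (center G)).ge.trans (ker_le_comap _ M)
  refine (hmax _ (hM.comap _) h1).imp (fun e => ?_) fun e => ?_
  · rw [← map_comap_eq_self_of_surjective hs M, e, ← hZN, Subgroup.map_eq_bot_iff, QuotientGroup.ker_mk']
  · rw [← map_comap_eq_self_of_surjective hs M, e, map_top_of_surjective _ hs]

end Cfsg.Agent.MX
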