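import Cfsg.Agent.MX.CA
import Cfsg.Agent.MX.CZ

/-! Groups with a Sylow subgroup of maximal class: assembly. -/

set_option autoImplicit false

namespace Cfsg.Agent.MX

open Subgroup H9 L0

universe u

theorem main0 {G : Type u} [Group G] [Finite G] (p : ℕ) [hp : Fact p.Prime] (P : Sylow p G) (n : ℕ)
    (hP : Nat.card P = p ^ n) (hn : 2 ≤ n) (hmax : Group.nilpotencyClass ↥(P : Subgroup G) = n - 1)
    (hcore : Cfsg.pPrimeCore p G = ⊥) (hres : ∀ N : Subgroup G, N.Normal → (N.index).Coprime p → N = ⊤)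
    (bl : MaxClass p n (P : Subgroup G) → ∀ l, 1 ≤ l → l + 4 ≤ n → tsc (P : Subgroup G) l = tsc (P : Subgroup G) 1)
    (cb : ∀ (N : Subgroup G) [N.Normal], N.relIndex (P : Subgroup G) = p → ∀ {x : G}, x ∈ (P : Subgroup G) → x ∉ N →
      Nat.card ↥((P : Subgroup G) ⊓ centralizer {x}) ≤ p ^ 2 → ¬ p ^ 3 ∣ Nat.card (centralizer ({x} : Set G))) :
    (∃ x ∈ (P : Subgroup G), (Nat.card (centralizer ({x} : Set G))).factorization p = 2) ∨
      (Cfsg.IsQuasisimple G ∧ Nat.card (center G) ≤ p) := by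
  have p1 := hp.out.one_lt
  rcases hn.eq_or_lt with rfl | h3
  · refine .inl ⟨1, one_mem _, ?_⟩
    rw [show centralizer ({1} : Set G) = ⊤ from eq_top_iff.2 fun g _ => mem_centralizer_singleton_iff.2 (by simp), card_top]
    exact Nat.pow_right_injective p1 (P.card_eq_multiplicity.symm.trans hP)
  have h := MaxClass.of_class hP hmax h3
  have c : ∀ x : (P : Subgroup G), (centralizer {x}).map (P : Subgroup G).subtype = (P : Subgroup G) ⊓ centralizer {(x : G)} :=
    fun x => le_antisymm (by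
      rintro _ ⟨y, hy, rfl⟩
      exact ⟨y.2, mem_centralizer_singleton_iff.2 (congrArg Subtype.val (mem_centralizer_singleton_iff.1 hy))⟩)
      fun y hy => ⟨⟨y, hy.1⟩, mem_centralizer_singleton_iff.2 (Subtype.ext (mem_centralizer_singleton_iff.1 hy.2)), rfl⟩
  have c2 : ∀ x : (P : Subgroup G), Good n x → Nat.card ↥((P : Subgroup G) ⊓ centralizer {(x : G)}) = p ^ 2 :=
    fun x hx => by rw [← c, H11.card_map_subtype, gc h hx]
  have fin : ∀ x : (P : Subgroup G), Good n x → ¬ p ^ 3 ∣ Nat.card (centralizer ({(x : G)} : Set G)) →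
      ∃ x ∈ (P : Subgroup G), (Nat.card (centralizer ({x} : Set G))).factorization p = 2 := fun x hx d => by
    have a := (hp.out.pow_dvd_iff_le_factorization Nat.card_pos.ne').1 (c2 x hx ▸ card_dvd_of_le
      (inf_le_right : (P : Subgroup G) ⊓ centralizer {(x : G)} ≤ _))
    rw [hp.out.pow_dvd_iff_le_factorization Nat.card_pos.ne'] at d
    exact ⟨x, x.2, by omega⟩
  have nt : (⊥ : Subgroup G) ≠ ⊤ := fun e => by
    have := card_le_of_le (le_top.trans e.ge : (P : Subgroup G) ≤ ⊥)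
    rw [card_bot, hP] at this
    exact this.not_gt (Nat.one_lt_pow (by omega) p1)
  obtain ⟨N, ⟨nN, hN⟩, mx⟩ := (wellFounded_gt (α := Subgroup G)).has_min {M | M.Normal ∧ M ≠ ⊤} ⟨⊥, inferInstance, nt⟩
  have mx' : ∀ M : Subgroup G, M.Normal → N ≤ M → M = N ∨ M = ⊤ := fun M nM le => by
    by_contra! k
    exact mx M ⟨nM, k.2⟩ (lt_of_le_of_ne le k.1.symm)
  have hQ : N.subgroupOf P ≠ ⊤ := fun e => hN (hres N nN ((Nat.Prime.coprime_iff_not_dvd hp.out).2 fun d =>
    P.not_dvd_index (d.trans (index_dvd_of_le (subgroupOf_eq_top.1 e)))).symm)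
  obtain ⟨r, hr, e⟩ := (Nat.dvd_prime_pow hp.out).1 (hP ▸ (N.subgroupOf P).index_dvd_card)
  obtain _ | _ | r := r
  · exact absurd (index_eq_one.1 e) hQ
  · obtain ⟨x, hx, k⟩ := gd h hQ
    exact .inl (fin x hx (cb N (e.trans (pow_one p)) x.2 k (c2 x hx).le))
  have q : N.subgroupOf P = gam (P : Subgroup G) (r + 1) := h.eq_lcs_of_index _ (by omega) e
  by_cases k : r + 1 + 3 ≤ n
  · obtain ⟨x, hx⟩ := exists_good n h
    exact .inl (fin x hx (ca P N h (by omega) k q (four P N h (by omega) k q mx') (bl h) hx))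
  have m := subgroupOf_map_subtype N (P : Subgroup G)
  refine .inr (cz P hcore hres N hN mx' ?_ ?_ (hP ▸ Nat.pow_le_pow_right p1.le h3))
  · rw [← m, H11.card_map_subtype, q]
    exact (card_le_of_le (gam_anti (by omega))).trans (cz1 h).le
  · rw [← m, q]
    refine (map_mono (gam_anti (show 1 ≤ r + 1 by omega))).trans ?_
    rw [show gam (P : Subgroup G) 1 = ⁅(⊤ : Subgroup (P : Subgroup G)), ⊤⁆ from rfl, map_commutator,
      ← MonoidHom.range_eq_map, range_subtype]

end Cfsg.Agent.MX
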